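import Mathlib
import Cfsg.Prelude.Def_SporadicB
import Cfsg.Prelude.Def_Local
import Cfsg.Agent.S0276
import Cfsg.Agent.SignalizersComponents.SLQuasisimple
import Cfsg.Agent.H326.LongCon

/-!
# `PSL₅(3)` has a 2-central involution whose centralizer is not 2-constrained (helper326)
-/

set_option autoImplicit false

open Subgroup Matrix Cfsg

namespace Cfsg.Agent.H326.LFiveThree

open Cfsg.Agent.SignalizersComponents.Components

variable {F : Type*} [Field F]

/-- reindexing -/
def reidx {α β : Type*} [Fintype α] [DecidableEq α] [Fintype β] [DecidableEq β] (f : α ≃ β) :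
    Matrix.SpecialLinearGroup α F ≃* Matrix.SpecialLinearGroup β F where
  toFun g := ⟨reindex f f g.1, by rw [det_reindex_self]; exact g.2⟩
  invFun g := ⟨reindex f.symm f.symm g.1, by rw [det_reindex_self]; exact g.2⟩
  left_inv g := by
    apply Subtype.ext
    ext i j
    simp
  right_inv g := by
    apply Subtype.ext
    ext i j
    simp
  map_mul' g h := by
    apply Subtype.ext
    change reindex f f (g.1 * h.1) = reindex f f g.1 * reindex f f h.1
    simp [reindex_apply, submatrix_mul_equiv]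

/-- `SL₅` in block form -/
abbrev S5 (F : Type*) [Field F] : Type _ := Matrix.SpecialLinearGroup (Fin 4 ⊕ Fin 1) F

/-- the block -/
def emb : Matrix.SpecialLinearGroup (Fin 4) F →* S5 F where
  toFun a := ⟨fromBlocks (a : Matrix (Fin 4) (Fin 4) F) 0 0 1, by
    rw [det_fromBlocks_zero₂₁, a.2, det_one, one_mul]⟩
  map_one' := by
    apply Subtype.ext
    change fromBlocks (1 : Matrix (Fin 4) (Fin 4) F) 0 0 1 = 1
    exact fromBlocks_one
  map_mul' a b := by
    apply Subtype.ext
    change fromBlocks ((a : Matrix (Fin 4) (Fin 4) F) * (b : Matrix (Fin 4) (Fin 4) F)) 0 0 1 =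
      fromBlocks (a : Matrix (Fin 4) (Fin 4) F) 0 0 1 * fromBlocks (b : Matrix (Fin 4) (Fin 4) F) 0 0 1
    rw [fromBlocks_multiply]
    simp

/-- `-1` -/
def neg : Matrix.SpecialLinearGroup (Fin 4) F := ⟨-1, by rw [det_neg, det_one]; norm_num⟩

theorem norm_emb (h2 : (2 : F) ≠ 0) {g : S5 F}
    (hg : g * emb neg = emb neg * g) (a : Matrix.SpecialLinearGroup (Fin 4) F) :
    g * emb a * g⁻¹ ∈ (emb : Matrix.SpecialLinearGroup (Fin 4) F →* _).range := by
  have e1 : (g : Matrix (Fin 4 ⊕ Fin 1) (Fin 4 ⊕ Fin 1) F) * fromBlocks (-1) 0 0 1 =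
      fromBlocks (-1) 0 0 1 * (g : Matrix (Fin 4 ⊕ Fin 1) (Fin 4 ⊕ Fin 1) F) := congrArg Subtype.val hg
  obtain ⟨A, B, C, D, hABCD⟩ : ∃ A B C D, (g : Matrix (Fin 4 ⊕ Fin 1) (Fin 4 ⊕ Fin 1) F) = fromBlocks A B C D :=
    ⟨_, _, _, _, (fromBlocks_toBlocks _).symm⟩
  rw [hABCD, fromBlocks_multiply, fromBlocks_multiply] at e1
  simp only [Matrix.mul_neg, Matrix.mul_one, Matrix.mul_zero, add_zero, zero_add, Matrix.neg_mul, Matrix.one_mul,
    Matrix.zero_mul] at e1
  rw [fromBlocks_inj] at e1
  have hB : B = 0 := by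
    have h1 : B = -B := e1.2.1
    ext i j
    have h3 : B i j = - B i j := congrFun (congrFun h1 i) j
    have h4 : (2 : F) * B i j = 0 := by linear_combination h3
    exact (mul_eq_zero.1 h4).resolve_left h2
  have hC : C = 0 := by
    have h1 : -C = C := e1.2.2.1
    ext i j
    have h3 : - C i j = C i j := congrFun (congrFun h1 i) j
    have h4 : (2 : F) * C i j = 0 := by linear_combination -h3
    exact (mul_eq_zero.1 h4).resolve_left h2
  rw [hB, hC] at hABCD
  have hdet : A.det * D.det = 1 := by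
    have h1 := g.2
    rw [hABCD, det_fromBlocks_zero₂₁] at h1
    exact h1
  have hA : IsUnit A.det := IsUnit.of_mul_eq_one _ hdet
  have hb : (A * (a : Matrix (Fin 4) (Fin 4) F) * A⁻¹).det = 1 := by
    rw [det_mul, det_mul, a.2, mul_one, det_nonsing_inv]
    exact Ring.mul_inverse_cancel _ hA
  refine ⟨⟨A * (a : Matrix (Fin 4) (Fin 4) F) * A⁻¹, hb⟩, ?_⟩
  rw [eq_mul_inv_iff_mul_eq]
  apply Subtype.ext
  change fromBlocks (A * (a : Matrix (Fin 4) (Fin 4) F) * A⁻¹) 0 0 1 *
    (g : Matrix (Fin 4 ⊕ Fin 1) (Fin 4 ⊕ Fin 1) F) = (g : Matrix (Fin 4 ⊕ Fin 1) (Fin 4 ⊕ Fin 1) F) *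
      fromBlocks (a : Matrix (Fin 4) (Fin 4) F) 0 0 1
  rw [hABCD, fromBlocks_multiply, fromBlocks_multiply]
  simp only [Matrix.mul_one, Matrix.mul_zero, add_zero, zero_add, Matrix.one_mul, Matrix.zero_mul]
  rw [Matrix.mul_assoc, nonsing_inv_mul _ hA, Matrix.mul_one]

theorem emb_injective : Function.Injective (emb : Matrix.SpecialLinearGroup (Fin 4) F →* S5 F) := by
  intro a b h
  have h1 := congrArg Subtype.val h
  change fromBlocks _ _ _ _ = fromBlocks _ _ _ _ at h1
  rw [fromBlocks_inj] at h1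
  exact Subtype.ext h1.1

/-- `GL₄` in `SL₅` -/
def gl : GL (Fin 4) F →* S5 F where
  toFun a := ⟨fromBlocks (a : Matrix (Fin 4) (Fin 4) F) 0 0
    ((((Matrix.GeneralLinearGroup.det a)⁻¹ : Fˣ) : F) • (1 : Matrix (Fin 1) (Fin 1) F)), by
    rw [det_fromBlocks_zero₂₁, det_smul, det_one, Fintype.card_fin, pow_one, mul_one]
    change ((Matrix.GeneralLinearGroup.det a : Fˣ) : F) * (((Matrix.GeneralLinearGroup.det a)⁻¹ : Fˣ) : F) = 1
    rw [← Units.val_mul, mul_inv_cancel, Units.val_one]⟩
  map_one' := by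
    apply Subtype.ext
    change fromBlocks (1 : Matrix (Fin 4) (Fin 4) F) 0 0 _ = 1
    rw [map_one, inv_one, Units.val_one, one_smul]
    exact fromBlocks_one
  map_mul' a b := by
    apply Subtype.ext
    change fromBlocks ((a : Matrix (Fin 4) (Fin 4) F) * (b : Matrix (Fin 4) (Fin 4) F)) 0 0 _ =
      fromBlocks (a : Matrix (Fin 4) (Fin 4) F) 0 0 _ * fromBlocks (b : Matrix (Fin 4) (Fin 4) F) 0 0 _
    rw [fromBlocks_multiply]
    simp only [Matrix.mul_zero, add_zero, zero_add, Matrix.zero_mul, smul_mul_smul, Matrix.mul_one]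
    rw [map_mul, mul_inv, Units.val_mul]

theorem gl_injective : Function.Injective (gl : GL (Fin 4) F →* S5 F) := by
  intro a b h
  have h1 := congrArg Subtype.val h
  change fromBlocks _ _ _ _ = fromBlocks _ _ _ _ at h1
  rw [fromBlocks_inj] at h1
  exact Units.ext h1.1

theorem gl_comm (a : GL (Fin 4) F) : gl a * emb neg = emb neg * gl a := by
  apply Subtype.ext
  change fromBlocks (a : Matrix (Fin 4) (Fin 4) F) 0 0 _ * fromBlocks (-1) 0 0 1 =
    fromBlocks (-1) 0 0 1 * fromBlocks (a : Matrix (Fin 4) (Fin 4) F) 0 0 _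
  rw [fromBlocks_multiply, fromBlocks_multiply]
  simp

theorem neg_ne (h2 : (2 : F) ≠ 0) : (neg : Matrix.SpecialLinearGroup (Fin 4) F) ≠ 1 := by
  intro h
  have h3 := congrFun (congrFun (congrArg Subtype.val h) 0) 0
  change (-1 : Matrix (Fin 4) (Fin 4) F) 0 0 = (1 : Matrix (Fin 4) (Fin 4) F) 0 0 at h3
  simp at h3
  apply h2
  linear_combination -h3

theorem neg_sq : (neg : Matrix.SpecialLinearGroup (Fin 4) F) * neg = 1 := by
  apply Subtype.ext
  change (-1 : Matrix (Fin 4) (Fin 4) F) * (-1) = 1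
  simp

theorem card_gl [Fintype F] (hF : Fintype.card F = 3) : 2 ^ 9 ∣ Nat.card (GL (Fin 4) F) := by
  rw [Matrix.card_GL_field, Fin.prod_univ_four, hF]
  norm_num

theorem card_sl [Fintype F] (hF : Fintype.card F = 3) : ¬ 2 ^ 10 ∣ Nat.card (Matrix.SpecialLinearGroup (Fin 5) F) := by
  classical
  have h := Cfsg.Agent.S0276.card_sl_mul (F := F) 5
  rw [Matrix.card_GL_field] at h
  simp only [Nat.card_eq_fintype_card, Fintype.card_units, hF, Fin.prod_univ_five] at h
  rw [Nat.card_eq_fintype_card]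
  norm_num at h ⊢
  omega

theorem two_ne [Fintype F] (hF : Fintype.card F = 3) : (2 : F) ≠ 0 := by
  intro h2
  have h3 : (3 : F) = 0 := by
    have := Nat.cast_card_eq_zero F
    rw [hF] at this
    exact_mod_cast this
  have h1 : (1 : F) = 0 := by linear_combination h3 - h2
  exact one_ne_zero h1

theorem center_eq [Fintype F] (hF : Fintype.card F = 3) : center (Matrix.SpecialLinearGroup (Fin 5) F) = ⊥ := by
  rw [eq_bot_iff]
  intro A hA
  obtain ⟨r, hr, h1⟩ := Matrix.SpecialLinearGroup.mem_center_iff.mp hA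
  have hr5 : r ^ 5 = 1 := by simpa using hr
  have hr0 : r ≠ 0 := by
    rintro rfl
    norm_num at hr5
  have h3 : r ^ 2 = 1 := by
    have h4 := FiniteField.pow_card_sub_one_eq_one r hr0
    rw [hF] at h4
    exact h4
  have hr1 : r = 1 := by
    calc r = r ^ 5 := by rw [show r ^ 5 = r * (r ^ 2) ^ 2 by ring, h3]; ring
      _ = 1 := hr5
  rw [mem_bot]
  apply Subtype.ext
  rw [← h1, hr1, map_one]
  rfl

/-- **`PSL₅(3)`.** -/
theorem false_of_psl53 {G : Type*} [Group G] [Finite G] [Fintype F] (hF : Fintype.card F = 3)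
    (e : G ≃* Matrix.ProjectiveSpecialLinearGroup (Fin 5) F)
    (hC : ∀ z : G, IsTwoCentralInvolution z → IsPConstrained 2 (centralizer ({z} : Set G))) : False := by
  have : Fact (Nat.Prime 2) := ⟨Nat.prime_two⟩
  have h2 := two_ne hF
  have e1 : Matrix.ProjectiveSpecialLinearGroup (Fin 5) F ≃* Matrix.SpecialLinearGroup (Fin 5) F :=
    (QuotientGroup.quotientMulEquivOfEq (center_eq hF)).trans QuotientGroup.quotientBot
  let φ : S5 F ≃* G := ((reidx finSumFinEquiv).trans e1.symm).trans e.symm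
  set t : G := φ (emb neg) with ht
  have htt : t * t = 1 := by rw [ht, ← map_mul, ← map_mul, neg_sq, map_one, map_one]
  have ht1 : t ≠ 1 := by
    intro h
    rw [ht, map_eq_one_iff _ φ.injective, map_eq_one_iff _ emb_injective] at h
    exact neg_ne h2 h
  have ho : orderOf t = 2 := orderOf_eq_prime (by rw [pow_two]; exact htt) ht1
  -- the component
  let f : Matrix.SpecialLinearGroup (Fin 4) F →* G := φ.toMonoidHom.comp emb
  have hf : Function.Injective f := φ.injective.comp emb_injective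
  have htJ : t ∈ f.range := ⟨neg, rfl⟩
  have hneg : ∀ a : Matrix.SpecialLinearGroup (Fin 4) F, a * neg = neg * a := by
    intro a
    apply Subtype.ext
    change (a : Matrix (Fin 4) (Fin 4) F) * -1 = -1 * (a : Matrix (Fin 4) (Fin 4) F)
    rw [Matrix.mul_neg, Matrix.neg_mul, Matrix.mul_one, Matrix.one_mul]
  have hJ : f.range ≤ centralizer ({t} : Set G) := by
    rintro _ ⟨a, rfl⟩
    rw [mem_centralizer_singleton_iff]
    change f a * f neg = f neg * f a
    rw [← map_mul, hneg, map_mul]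
  have hJn : (f.range.subgroupOf (centralizer ({t} : Set G))).Normal := by
    constructor
    rintro ⟨x, hx⟩ hxJ ⟨g, hg⟩
    rw [mem_subgroupOf] at hxJ ⊢
    obtain ⟨a, rfl⟩ := hxJ
    obtain ⟨g', rfl⟩ := φ.surjective g
    have hg' : g' * emb neg = emb neg * g' := by
      apply φ.injective
      rw [map_mul, map_mul]
      exact mem_centralizer_singleton_iff.1 hg
    obtain ⟨b, hb⟩ := norm_emb h2 hg' a
    refine ⟨b, ?_⟩
    change φ (emb b) = φ g' * φ (emb a) * (φ g')⁻¹
    rw [hb, map_mul, map_mul, map_inv]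
  have hJs : (f.range.subgroupOf (centralizer ({t} : Set G))).IsSubnormal := hJn.isSubnormal
  have hq : IsQuasisimple f.range := isQuasisimple_of_mulEquiv (MonoidHom.ofInjective hf)
    (Cfsg.Agent.SignalizersComponents.SLQuasisimple.isQuasisimple_of_three_le (by simp))
  -- the index
  let g4 : GL (Fin 4) F →* G := φ.toMonoidHom.comp gl
  have hg4 : Function.Injective g4 := φ.injective.comp gl_injective
  have hle : g4.range ≤ centralizer ({t} : Set G) := by
    rintro _ ⟨a, rfl⟩
    rw [mem_centralizer_singleton_iff]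
    change φ (gl a) * φ (emb neg) = φ (emb neg) * φ (gl a)
    rw [← map_mul, gl_comm, map_mul]
  have h9 : 2 ^ 9 ∣ Nat.card (centralizer ({t} : Set G)) := by
    refine (card_gl hF).trans ?_
    rw [Nat.card_congr (MonoidHom.ofInjective hg4).toEquiv]
    exact card_dvd_of_le hle
  have h10 : ¬ 2 ^ 10 ∣ Nat.card G := by
    rw [Nat.card_congr e.toEquiv, Nat.card_congr e1.toEquiv]
    exact card_sl hF
  have hidx : ¬ 2 ∣ (centralizer ({t} : Set G)).index := by
    intro h
    apply h10
    rw [← Subgroup.card_mul_index (centralizer ({t} : Set G)), pow_succ]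
    exact Nat.mul_dvd_mul h9 h
  obtain ⟨P⟩ : Nonempty (Sylow 2 (centralizer ({t} : Set G))) := inferInstance
  have hP : IsPGroup 2 ((P : Subgroup (centralizer ({t} : Set G))).map (centralizer ({t} : Set G)).subtype) :=
    P.isPGroup'.map _
  have hPi : ¬ 2 ∣ ((P : Subgroup (centralizer ({t} : Set G))).map (centralizer ({t} : Set G)).subtype).index := by
    rw [Subgroup.index_map_subtype]
    intro h
    rcases (Nat.Prime.dvd_mul Nat.prime_two).1 h with h | h
    · exact P.not_dvd_index h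
    · exact hidx h
  have hz : IsTwoCentralInvolution t := by
    refine ⟨ho, hP.toSylow hPi, ?_, ?_⟩
    · have htC : t ∈ centralizer ({t} : Set G) := mem_centralizer_singleton_iff.2 rfl
      refine ⟨⟨t, htC⟩, ?_, rfl⟩
      have h3 : zpowers (⟨t, htC⟩ : centralizer ({t} : Set G)) ≤ center (centralizer ({t} : Set G)) := by
        rw [zpowers_le, mem_center_iff]
        intro c
        exact Subtype.ext (mem_centralizer_singleton_iff.1 c.2)
      have h4 : (zpowers (⟨t, htC⟩ : centralizer ({t} : Set G))).Normal := by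
        constructor
        intro x hx g
        rw [mem_center_iff.1 (h3 hx) g, mul_inv_cancel_right]
        exact hx
      have h5 : IsPGroup 2 (zpowers (⟨t, htC⟩ : centralizer ({t} : Set G))) := by
        refine IsPGroup.of_card (n := 1) ?_
        rw [Nat.card_zpowers, Subgroup.orderOf_mk, ho, pow_one]
      exact (h5.le_sylow_of_normal P) (mem_zpowers _)
    · rintro x ⟨y, -, rfl⟩
      exact mem_centralizer_singleton_iff.1 y.2
  refine Cfsg.Agent.H326.LongCon.not_con (hC t hz) (t := t) ?_ (mem_centralizer_singleton_iff.2 rfl) hJ hJ hJs hq ?_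
  · exact IsPGroup.of_card (n := 1) (by rw [Nat.card_zpowers, ho, pow_one])
  · rw [← ho, ← Subgroup.orderOf_mk t htJ]
    exact orderOf_dvd_natCard _

end Cfsg.Agent.H326.LFiveThree
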