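import Mathlib
import Cfsg.Agent.GH.Pc
import Cfsg.Agent.GH.PcTypes
import Cfsg.Agent.GH.Models.Proj
import Cfsg.Agent.H326.NormEight

/-!
# Normal elementary abelian subgroups from polycyclic presentations (helper326)

* `card_of_nf` : if no normal word is trivial, the group has order `2 ^ n`;
* `isType_ne8` : a group given by a presentation whose last generators (from number `k` on) form an elementary abelian
  normal subgroup, `k + 3 ≤ n`, is `NE8`;
* `ne8_of_sat` : the Sylow 2-subgroups of `X` are `NE8` if `X` contains such a group of the right order.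
-/

set_option autoImplicit false

open Subgroup

namespace Cfsg.Agent.H326.PcEight

open Cfsg.Agent.GH.Pc Cfsg.Agent.GH.PcTypes Cfsg.Agent.GH.Models.Proj
open Cfsg.Agent.H326.NormEight

section

variable {n : ℕ} {P : Pres n} {G : Type*} [Group G] {x : Fin n → G}

/-- splitting off the first letter -/
theorem filter_split (i : Fin n) (e e' : Fin n → Bool) (h0 : ∀ j < i, e j = false) (h1 : e i = true)
    (h0' : ∀ j ≤ i, e' j = false) (h2 : ∀ j, i < j → e j = e' j) :
    (List.finRange n).filter (fun j => e j) = i :: (List.finRange n).filter (fun j => e' j) := by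
  obtain ⟨l1, l2, hl⟩ := List.append_of_mem (List.mem_finRange i)
  have hs : (List.finRange n).Pairwise (· < ·) := List.pairwise_lt_finRange n
  rw [hl, List.pairwise_append] at hs
  obtain ⟨-, hs2, hs3⟩ := hs
  have a1 : ∀ j ∈ l1, j < i := fun j hj => hs3 j hj i (by simp)
  have a2 : ∀ j ∈ l2, i < j := fun j hj => (List.pairwise_cons.1 hs2).1 j hj
  rw [hl, List.filter_append, List.filter_append]
  have b1 : l1.filter (fun j => e j) = [] := by
    rw [List.filter_eq_nil_iff]
    intro j hj
    rw [h0 j (a1 j hj)]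
    decide
  have b2 : l1.filter (fun j => e' j) = [] := by
    rw [List.filter_eq_nil_iff]
    intro j hj
    rw [h0' j (a1 j hj).le]
    decide
  have b3 : l2.filter (fun j => e j) = l2.filter (fun j => e' j) := by
    apply List.filter_congr
    intro j hj
    rw [h2 j (a2 j hj)]
  rw [b1, b2, List.nil_append, List.nil_append, List.filter_cons_of_pos h1, List.filter_cons_of_neg, b3]
  rw [h0' i le_rfl]
  decide

/-- no generator is in the next term of the series -/
theorem not_mem_ser (hP : P.Ok) (hx : Sat P x) (hn : ∀ e : Fin n → Bool, nf x e = 1 → e = fun _ => false)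
    (i : Fin n) : x i ∉ ser x (i.val + 1) := by
  intro h
  have h1 : (x i)⁻¹ ∈ ser x (i.val + 1) := inv_mem h
  have h2 : n - (n - (i.val + 1)) = i.val + 1 := by omega
  obtain ⟨e', h3, h4⟩ := exists_nf_ser hP hx (n - (i.val + 1)) (by omega) (x i)⁻¹ (by rw [h2]; exact h1)
  rw [h2] at h3
  let e : Fin n → Bool := fun j => if j = i then true else e' j
  have h5 : nf x e = x i * nf x e' := by
    unfold nf
    rw [filter_split i e e', word_cons]
    · intro j hj
      have : j ≠ i := ne_of_lt hj
      simp only [e, this, if_false]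
      exact h3 j (by have := Fin.lt_def.1 hj; omega)
    · simp [e]
    · intro j hj
      exact h3 j (by have := Fin.le_def.1 hj; omega)
    · intro j hj
      have : j ≠ i := (ne_of_lt hj).symm
      simp only [e, this, if_false]
  have h6 : nf x e = 1 := by rw [h5, ← h4, mul_inv_cancel]
  have h7 := congrFun (hn e h6) i
  simp [e] at h7

theorem ser_mono (x : Fin n → G) {i j : ℕ} (h : i ≤ j) : ser x j ≤ ser x i := by
  unfold ser
  apply Subgroup.closure_mono
  rintro g ⟨l, hl, rfl⟩
  exact ⟨l, h.trans hl, rfl⟩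

theorem finite_ser (hP : P.Ok) (hx : Sat P x) (i : ℕ) : Finite (ser x i) := by
  have h1 := (card_le hP hx).1
  rw [← ser_zero] at h1
  exact Finite.of_injective (inclusion (ser_mono x (Nat.zero_le i))) (inclusion_injective _)

theorem card_ser_ge (hP : P.Ok) (hx : Sat P x)
    (hn : ∀ e : Fin n → Bool, nf x e = 1 → e = fun _ => false) (k : ℕ) (hk : k ≤ n) :
    2 ^ k ≤ Nat.card (ser x (n - k)) := by
  induction k with
  | zero =>
    have := finite_ser hP hx (n - 0)
    rw [pow_zero]
    exact Nat.card_pos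
  | succ k ih =>
    have h1 := ih (by omega)
    have hi : n - (k + 1) < n := by omega
    have h3 : n - k = n - (k + 1) + 1 := by omega
    have h4 : ser x (n - k) ≤ ser x (n - (k + 1)) := ser_mono x (by omega)
    have h5 : ser x (n - k) ≠ ser x (n - (k + 1)) := by
      intro h
      have h6 := not_mem_ser hP hx hn ⟨n - (k + 1), hi⟩
      apply h6
      change x ⟨n - (k + 1), hi⟩ ∈ ser x (n - (k + 1) + 1)
      rw [← h3, h]
      exact mem_ser x le_rfl
    have := finite_ser hP hx (n - k)
    have := finite_ser hP hx (n - (k + 1))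
    have h6 : Nat.card (ser x (n - k)) ∣ Nat.card (ser x (n - (k + 1))) := card_dvd_of_le h4
    have h7 : Nat.card (ser x (n - k)) ≠ Nat.card (ser x (n - (k + 1))) := by
      intro h
      exact h5 (Subgroup.eq_of_le_of_card_ge h4 h.ge)
    have h8 : 2 * Nat.card (ser x (n - k)) ≤ Nat.card (ser x (n - (k + 1))) := by
      obtain ⟨c, hc⟩ := h6
      have h9 : 0 < Nat.card (ser x (n - (k + 1))) := Nat.card_pos
      rcases c with _ | _ | c
      · omega
      · omega
      · rw [hc]; nlinarith [Nat.card_pos (α := ser x (n - k))]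
    rw [pow_succ]
    omega

/-- the order of the group -/
theorem card_of_nf (hP : P.Ok) (hx : Sat P x)
    (hn : ∀ e : Fin n → Bool, nf x e = 1 → e = fun _ => false) : Nat.card (closure (Set.range x)) = 2 ^ n := by
  have h1 := card_ser_ge hP hx hn n le_rfl
  rw [Nat.sub_self, ser_zero] at h1
  exact le_antisymm (card_le hP hx).2 h1

/-- the last generators form a normal elementary abelian subgroup -/
def Chk {n : ℕ} (P : Pres n) (k : ℕ) : Prop :=
  (∀ i j, i < j → k ≤ j.val → ∀ l ∈ P.cj i j, k ≤ l.val) ∧ (∀ i, k ≤ i.val → P.sq i = []) ∧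
    (∀ i j, i < j → k ≤ i.val → P.cj i j = [j])

instance {n : ℕ} (P : Pres n) (k : ℕ) : Decidable (Chk P k) := by unfold Chk; infer_instance

theorem comm_ser (hx : Sat P x) {k : ℕ} (hc : Chk P k) (i j : Fin n) (hi : k ≤ i.val) (hj : k ≤ j.val) :
    x i * x j = x j * x i := by
  rcases lt_trichotomy i j with h | h | h
  · rw [hx.cj i j h, hc.2.2 i j h hi, word_cons, word_nil, mul_one]
  · rw [h]
  · rw [hx.cj j i h, hc.2.2 j i h hj, word_cons, word_nil, mul_one]

theorem sq_one (hx : Sat P x) {k : ℕ} (hc : Chk P k) : ∀ g ∈ ser x k, g * g = 1 := by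
  have hcomm : ∀ g ∈ ser x k, ∀ h ∈ ser x k, g * h = h * g := by
    intro g hg h hh
    have h1 : IsMulCommutative (ser x k) := by
      apply Subgroup.isMulCommutative_closure
      rintro a ⟨i, hi, rfl⟩ b ⟨j, hj, rfl⟩
      exact comm_ser hx hc i j hi hj
    exact congrArg Subtype.val (h1.is_comm.comm ⟨g, hg⟩ ⟨h, hh⟩)
  intro g hg
  unfold ser at hg
  induction hg using closure_induction with
  | mem g hg =>
    obtain ⟨i, hi, rfl⟩ := hg
    rw [hx.sq i, hc.2.1 i hi, word_nil]
  | one => exact one_mul 1
  | mul a b ha hb h1 h2 =>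
    rw [show a * b * (a * b) = a * (b * a) * b by group, ← hcomm a ha b hb,
      show a * (a * b) * b = (a * a) * (b * b) by group, h1, h2, one_mul]
  | inv a ha h1 => rw [← mul_inv_rev, h1, inv_one]

theorem conj_gen (hP : P.Ok) (hx : Sat P x) {k : ℕ} (hc : Chk P k) (i : Fin n) :
    ∀ g ∈ ser x k, x i * g * (x i)⁻¹ ∈ ser x k := by
  have h1 : ser x k ≤ (ser x k).comap (MulAut.conj (x i)).toMonoidHom := by
    conv_lhs => unfold ser
    rw [closure_le]
    rintro g ⟨j, hj, rfl⟩
    change x i * x j * (x i)⁻¹ ∈ ser x k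
    by_cases hik : k ≤ i.val
    · exact mul_mem (mul_mem (mem_ser x hik) (mem_ser x hj)) (inv_mem (mem_ser x hik))
    · have hij : i < j := Fin.lt_def.2 (by omega)
      rw [hx.cj i j hij, mul_inv_cancel_right]
      exact word_mem fun l hl => mem_ser x (hc.1 i j hij hj l hl)
  intro g hg
  exact h1 hg

theorem conj_mem_ser [Finite G] (hP : P.Ok) (hx : Sat P x) {k : ℕ} (hc : Chk P k) :
    ∀ h ∈ closure (Set.range x), ∀ g ∈ ser x k, h * g * h⁻¹ ∈ ser x k := by
  have h1 : closure (Set.range x) ≤ normalizer (ser x k : Set G) := by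
    rw [closure_le]
    rintro _ ⟨i, rfl⟩
    rw [SetLike.mem_coe]
    have h2 : (ser x k).map (MulAut.conj (x i)).toMonoidHom = ser x k := by
      apply Subgroup.eq_of_le_of_card_ge
      · rintro _ ⟨g, hg, rfl⟩
        exact conj_gen hP hx hc i g hg
      · rw [Subgroup.card_map_of_injective (MulAut.conj (x i)).injective]
    rw [mem_normalizer_iff]
    intro g
    refine ⟨conj_gen hP hx hc i g, fun h => ?_⟩
    rw [← h2] at h
    obtain ⟨g', hg', h3⟩ := h
    change x i * g' * (x i)⁻¹ = x i * g * (x i)⁻¹ at h3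
    have h4 : g' = g := mul_left_cancel (mul_right_cancel h3)
    rwa [← h4]
  intro h hh g hg
  exact (mem_normalizer_iff.1 (h1 hh) g).1 hg

/-- the Sylow 2-subgroups of `X` -/
theorem ne8_of_sat {X : Type*} [Group X] [Finite X] (hP : P.Ok) {y : Fin n → X} (hy : Sat P y)
    (hn : ∀ e : Fin n → Bool, nf y e = 1 → e = fun _ => false) (hX : ¬ 2 ^ (n + 1) ∣ Nat.card X) {k : ℕ}
    (hc : Chk P k) (hk : k + 3 ≤ n) (T : Sylow 2 X) : NE8 ↥(T : Subgroup X) := by
  have h1 := card_of_nf hP hy hn
  have hV8 : 8 ≤ Nat.card (ser y k) := by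
    have h2 := card_ser_ge hP hy hn (n - k) (by omega)
    rw [Nat.sub_sub_self (by omega)] at h2
    refine le_trans ?_ h2
    calc 8 = 2 ^ 3 := by norm_num
      _ ≤ 2 ^ (n - k) := Nat.pow_le_pow_right (by norm_num) (by omega)
  refine of_odd_index (ser y k) (sq_one hy hc) hV8 (closure (Set.range y)) ?_ (conj_mem_ser hP hy hc) ?_ T
  · intro h
    apply hX
    rw [← Subgroup.card_mul_index (closure (Set.range y)), h1, pow_succ]
    exact Nat.mul_dvd_mul_left _ h
  · rw [← ser_zero]
    exact ser_mono y (Nat.zero_le k)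

/-- groups given by a presentation -/
theorem isType_ne8 {T : Type*} [Group T] (hP : P.Ok) (hT : IsType P T) {k : ℕ} (hc : Chk P k) (hk : k + 3 ≤ n) :
    NE8 T := by
  obtain ⟨h1, x, h2, h3⟩ := hT
  have hf : Finite T := Nat.finite_of_card_ne_zero (by rw [h1]; positivity)
  have h4 : Nat.card (closure (Set.range x)) = 2 ^ n := by rw [h3, card_top, h1]
  refine ⟨ser x k, ?_, sq_one h2 hc, ?_⟩
  · constructor
    intro g hg h
    exact conj_mem_ser hP h2 hc h (by rw [h3]; trivial) g hg
  · have hinj := nf_injective hP h2 h4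
    have h0 : nf x (fun _ => false) = 1 := by
      unfold nf
      rw [List.filter_eq_nil_iff.2 (by intro a _; simp), word_nil]
    have h5 := card_ser_ge hP h2 (fun e he => hinj (he.trans h0.symm)) (n - k) (by omega)
    rw [Nat.sub_sub_self (by omega)] at h5
    refine le_trans ?_ h5
    calc 8 = 2 ^ 3 := by norm_num
      _ ≤ 2 ^ (n - k) := Nat.pow_le_pow_right (by norm_num) (by omega)

/-- a model in a group with decidable equality -/
def chkNf [DecidableEq G] (x : Fin n → G) (e : Fin n → Bool) : Bool := isZ e || !(decide (nf x e = 1))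

theorem nf_of_chk [DecidableEq G] (h : allB n (chkNf x) = true) (e : Fin n → Bool) (he : nf x e = 1) :
    e = fun _ => false := by
  have h1 := allB_spec h e
  rw [chkNf, Bool.or_eq_true] at h1
  rcases h1 with h1 | h1
  · exact isZ_spec h1
  · exfalso
    rw [Bool.not_eq_true', decide_eq_false_iff_not] at h1
    exact h1 he

theorem isType_of_model (hP : P.Ok) (hx : Sat P x)
    (hn : ∀ e : Fin n → Bool, nf x e = 1 → e = fun _ => false) : IsType P ↥(closure (Set.range x)) :=
  isType_of_closure hx _ rfl (card_of_nf hP hx hn)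

end

end Cfsg.Agent.H326.PcEight
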