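import Mathlib
import Cfsg.Agent.GH.Models.PSL43
import Cfsg.Agent.GH.Models.PSp43
import Cfsg.Agent.GH.Models.UT34
import Cfsg.Agent.GH.Models.G23
import Cfsg.Agent.MTwelveType.SylowModel
import Cfsg.Agent.LieClassical.FieldTransfer
import Cfsg.Agent.ChevalleyStructure.FieldIso
import Cfsg.Agent.H326.PcEight

/-!
# Normal elementary abelian subgroups of order 8 in Sylow 2-subgroups (helper326)

`A₈`, ..., `A₁₁`, `PSL₄(3)`, `PSp₄(3)`, `PSL₃(4)`, `G₂(3)`, `M₁₂`.
-/

set_option autoImplicit false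
set_option maxRecDepth 10000

open Subgroup Equiv

namespace Cfsg.Agent.H326.Models

open Cfsg.Agent.GH.Pc Cfsg.Agent.GH.PcTypes Cfsg.Agent.GH.Models.Proj
open Cfsg.Agent.H326.NormEight Cfsg.Agent.H326.PcEight

/-! ### models of `W8`, `W24`, `UT34` -/

/-- `2 wr D₈` on 8 points -/
def w8 : Fin 7 → Perm (Fin 8) := ![
  swap 2 6 * swap 3 7,
  swap 0 2 * swap 1 3 * swap 4 6 * swap 5 7,
  swap 0 6 * swap 1 7 * swap 2 4 * swap 3 5,
  swap 0 1, swap 2 3, swap 4 5, swap 6 7]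

theorem sat_w8 : Sat W8 w8 := ⟨by decide +kernel, by decide +kernel⟩

theorem nf_w8 : allB 7 (chkNf w8) = true := by decide +kernel

theorem type_w8 : IsType W8 ↥(closure (Set.range w8)) := isType_of_model W8_ok sat_w8 (nf_of_chk nf_w8)

/-- `2 wr V₄` on 8 points -/
def w24 : Fin 6 → Perm (Fin 8) := ![
  swap 0 2 * swap 1 3 * swap 4 6 * swap 5 7,
  swap 0 4 * swap 1 5 * swap 2 6 * swap 3 7,
  swap 0 1, swap 2 3, swap 4 5, swap 6 7]

theorem sat_w24 : Sat W24 w24 := ⟨by decide +kernel, by decide +kernel⟩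

theorem nf_w24 : allB 6 (chkNf w24) = true := by decide +kernel

theorem type_w24 : IsType W24 ↥(closure (Set.range w24)) :=
  isType_of_model W24_ok sat_w24 (nf_of_chk nf_w24)

theorem chk_w8 : Chk W8 3 := by decide +kernel

theorem chk_w24 : Chk W24 2 := by decide +kernel

theorem chk_ut34 : Chk UT34 2 := by decide +kernel

theorem chk_m22t : Chk M22T 3 := by decide +kernel

theorem W8_ne8 {T : Type*} [Group T] (h : IsType W8 T) : NE8 T := isType_ne8 W8_ok h chk_w8 (by norm_num)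

theorem W24_ne8 {T : Type*} [Group T] (h : IsType W24 T) : NE8 T := isType_ne8 W24_ok h chk_w24 (by norm_num)

theorem UT34_ne8 {T : Type*} [Group T] (h : IsType UT34 T) : NE8 T :=
  isType_ne8 UT34_ok h chk_ut34 (by norm_num)

theorem M22T_ne8 {T : Type*} [Group T] (h : IsType M22T T) : NE8 T :=
  isType_ne8 M22T_ok h chk_m22t (by norm_num)

/-! ### the alternating groups -/

/-- the Sylow 2-subgroup of `A₈` : `t a b e₁e₂ e₁e₃ e₁e₄` -/
def P8 : Pres 6 where
  sq _ := []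
  cj := cjOf fun i j => match i, j with
    | 0, 1 => some [2]
    | 0, 2 => some [1]
    | 0, 3 => some [5]
    | 0, 5 => some [3]
    | 1, 4 => some [3, 5]
    | 1, 5 => some [3, 4]
    | 2, 3 => some [4, 5]
    | 2, 4 => some [3, 5]
    | _, _ => none

theorem P8_ok : P8.Ok := by decide

theorem chk_p8 : Chk P8 3 := by decide +kernel

def a8 : Fin 6 → alternatingGroup (Fin 8) := ![
  ⟨swap 2 6 * swap 3 7, Equiv.Perm.mem_alternatingGroup.2 (by decide +kernel)⟩,
  ⟨swap 0 2 * swap 1 3 * swap 4 6 * swap 5 7, Equiv.Perm.mem_alternatingGroup.2 (by decide +kernel)⟩,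
  ⟨swap 0 6 * swap 1 7 * swap 2 4 * swap 3 5, Equiv.Perm.mem_alternatingGroup.2 (by decide +kernel)⟩,
  ⟨swap 0 1 * swap 2 3, Equiv.Perm.mem_alternatingGroup.2 (by decide +kernel)⟩, ⟨swap 0 1 * swap 4 5, Equiv.Perm.mem_alternatingGroup.2 (by decide +kernel)⟩,
  ⟨swap 0 1 * swap 6 7, Equiv.Perm.mem_alternatingGroup.2 (by decide +kernel)⟩]

theorem sat_a8 : Sat P8 a8 := ⟨by decide +kernel, by decide +kernel⟩

theorem nf_a8 : allB 6 (chkNf a8) = true := by decide +kernel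

def a9 : Fin 6 → alternatingGroup (Fin 9) := ![
  ⟨swap 2 6 * swap 3 7, Equiv.Perm.mem_alternatingGroup.2 (by decide +kernel)⟩,
  ⟨swap 0 2 * swap 1 3 * swap 4 6 * swap 5 7, Equiv.Perm.mem_alternatingGroup.2 (by decide +kernel)⟩,
  ⟨swap 0 6 * swap 1 7 * swap 2 4 * swap 3 5, Equiv.Perm.mem_alternatingGroup.2 (by decide +kernel)⟩,
  ⟨swap 0 1 * swap 2 3, Equiv.Perm.mem_alternatingGroup.2 (by decide +kernel)⟩, ⟨swap 0 1 * swap 4 5, Equiv.Perm.mem_alternatingGroup.2 (by decide +kernel)⟩,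
  ⟨swap 0 1 * swap 6 7, Equiv.Perm.mem_alternatingGroup.2 (by decide +kernel)⟩]

theorem sat_a9 : Sat P8 a9 := ⟨by decide +kernel, by decide +kernel⟩

theorem nf_a9 : allB 6 (chkNf a9) = true := by decide +kernel

def a10 : Fin 7 → alternatingGroup (Fin 10) := ![
  ⟨swap 2 6 * swap 3 7, Equiv.Perm.mem_alternatingGroup.2 (by decide +kernel)⟩,
  ⟨swap 0 2 * swap 1 3 * swap 4 6 * swap 5 7, Equiv.Perm.mem_alternatingGroup.2 (by decide +kernel)⟩,
  ⟨swap 0 6 * swap 1 7 * swap 2 4 * swap 3 5, Equiv.Perm.mem_alternatingGroup.2 (by decide +kernel)⟩,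
  ⟨swap 0 1 * swap 8 9, Equiv.Perm.mem_alternatingGroup.2 (by decide +kernel)⟩, ⟨swap 2 3 * swap 8 9, Equiv.Perm.mem_alternatingGroup.2 (by decide +kernel)⟩,
  ⟨swap 4 5 * swap 8 9, Equiv.Perm.mem_alternatingGroup.2 (by decide +kernel)⟩, ⟨swap 6 7 * swap 8 9, Equiv.Perm.mem_alternatingGroup.2 (by decide +kernel)⟩]

theorem sat_a10 : Sat W8 a10 := ⟨by decide +kernel, by decide +kernel⟩

theorem nf_a10 : allB 7 (chkNf a10) = true := by decide +kernel

def a11 : Fin 7 → alternatingGroup (Fin 11) := ![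
  ⟨swap 2 6 * swap 3 7, Equiv.Perm.mem_alternatingGroup.2 (by decide +kernel)⟩,
  ⟨swap 0 2 * swap 1 3 * swap 4 6 * swap 5 7, Equiv.Perm.mem_alternatingGroup.2 (by decide +kernel)⟩,
  ⟨swap 0 6 * swap 1 7 * swap 2 4 * swap 3 5, Equiv.Perm.mem_alternatingGroup.2 (by decide +kernel)⟩,
  ⟨swap 0 1 * swap 8 9, Equiv.Perm.mem_alternatingGroup.2 (by decide +kernel)⟩, ⟨swap 2 3 * swap 8 9, Equiv.Perm.mem_alternatingGroup.2 (by decide +kernel)⟩,
  ⟨swap 4 5 * swap 8 9, Equiv.Perm.mem_alternatingGroup.2 (by decide +kernel)⟩, ⟨swap 6 7 * swap 8 9, Equiv.Perm.mem_alternatingGroup.2 (by decide +kernel)⟩]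

theorem sat_a11 : Sat W8 a11 := ⟨by decide +kernel, by decide +kernel⟩

theorem nf_a11 : allB 7 (chkNf a11) = true := by decide +kernel

theorem not_dvd_alt {n m : ℕ} (hn : 1 < n) (h : ¬ m ∣ n.factorial / 2) :
    ¬ m ∣ Nat.card (alternatingGroup (Fin n)) := by
  have : Nontrivial (Fin n) := Fin.nontrivial_iff_two_le.2 hn
  rw [nat_card_alternatingGroup, Nat.card_eq_fintype_card, Fintype.card_fin]
  exact h

theorem alt (n : ℕ) (h8 : 8 ≤ n) (h11 : n ≤ 11) (T : Sylow 2 (alternatingGroup (Fin n))) :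
    NE8 ↥(T : Subgroup (alternatingGroup (Fin n))) := by
  rcases (by omega : n = 8 ∨ n = 9 ∨ n = 10 ∨ n = 11) with rfl | rfl | rfl | rfl
  · exact ne8_of_sat P8_ok sat_a8 (nf_of_chk nf_a8) (not_dvd_alt (by norm_num) (by decide +kernel)) chk_p8
      (by norm_num) T
  · exact ne8_of_sat P8_ok sat_a9 (nf_of_chk nf_a9) (not_dvd_alt (by norm_num) (by decide +kernel)) chk_p8
      (by norm_num) T
  · exact ne8_of_sat W8_ok sat_a10 (nf_of_chk nf_a10) (not_dvd_alt (by norm_num) (by decide +kernel)) chk_w8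
      (by norm_num) T
  · exact ne8_of_sat W8_ok sat_a11 (nf_of_chk nf_a11) (not_dvd_alt (by norm_num) (by decide +kernel)) chk_w8
      (by norm_num) T

theorem isAlt {G : Type*} [Group G] [Finite G] {n : ℕ} (h8 : 8 ≤ n) (h11 : n ≤ 11)
    (e : G ≃* alternatingGroup (Fin n)) (T : Sylow 2 G) : NE8 ↥(T : Subgroup G) :=
  of_equiv e (alt n h8 h11 default) T

/-! ### from types -/

theorem of_sylOf {S X : Type*} [Group S] [Group X] [Finite X] (h : Cfsg.Agent.GH.Defs.SylOf S X) (hS : NE8 S)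
    (T : Sylow 2 X) : NE8 ↥(T : Subgroup X) := by
  obtain ⟨P, ⟨e⟩⟩ := h
  exact of_conj (S := P) (hS.congr e) T

theorem psl43 {G : Type*} [Group G] [Finite G] {F : Type*} [Field F] [Fintype F] (hF : Fintype.card F = 3)
    (e : G ≃* Matrix.ProjectiveSpecialLinearGroup (Fin 4) F) (T : Sylow 2 G) : NE8 ↥(T : Subgroup G) := by
  have : Fact (Nat.Prime 3) := ⟨by norm_num⟩
  have φ : F ≃+* ZMod 3 := FiniteField.ringEquivOfCardEq (by rw [hF, ZMod.card])
  have e' : G ≃* Matrix.ProjectiveSpecialLinearGroup (Fin 4) (ZMod 3) :=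
    e.trans (Cfsg.Agent.LieClassical.FieldTransfer.pslCongr φ)
  have : Finite (Matrix.ProjectiveSpecialLinearGroup (Fin 4) (ZMod 3)) := Finite.of_equiv _ e'.toEquiv
  exact of_equiv e' (of_sylOf (Cfsg.Agent.GH.Models.PSL43.sylOf type_w8) (W8_ne8 type_w8) default) T

theorem psp43 {G : Type*} [Group G] [Finite G] {F : Type*} [Field F] [Fintype F] (hF : Fintype.card F = 3)
    (e : G ≃* Cfsg.PSp 2 F) (T : Sylow 2 G) : NE8 ↥(T : Subgroup G) := by
  have : Fact (Nat.Prime 3) := ⟨by norm_num⟩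
  have φ : F ≃+* ZMod 3 := FiniteField.ringEquivOfCardEq (by rw [hF, ZMod.card])
  have e' : G ≃* Cfsg.PSp 2 (ZMod 3) := e.trans (Cfsg.Agent.LieClassical.FieldTransfer.pspCongr 2 φ)
  have : Finite (Cfsg.PSp 2 (ZMod 3)) := Finite.of_equiv _ e'.toEquiv
  exact of_equiv e' (of_sylOf (Cfsg.Agent.GH.Models.PSp43.sylOf type_w24) (W24_ne8 type_w24) default) T

/-! ### the model group of order 64 for `G₂(3)` and `M₁₂` -/

section model

open Cfsg.Agent.ClassificationK.GTwoModel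

instance : Fintype (T (2 * 2)) := Fintype.ofEquiv _ (T.equivProd (2 * 2)).symm

/-- the membership test -/
def chkT (g : T (2 * 2)) : Bool := !g.d && (decide (g.i = 0) || decide (g.i = 2)) && (decide (g.j = 0) || decide (g.j = 2))

theorem chkT_mul : ∀ a b : T (2 * 2), chkT a = true → chkT b = true → chkT (a * b) = true := by decide +kernel

theorem chkT_inv : ∀ a : T (2 * 2), chkT a = true → chkT a⁻¹ = true := by decide +kernel

theorem chkT_conj : ∀ g a : T (2 * 2), chkT a = true → chkT (g * a * g⁻¹) = true := by decide +kernel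

theorem chkT_sq : ∀ a : T (2 * 2), chkT a = true → a * a = 1 := by decide +kernel

/-- the subgroup -/
def VT : Subgroup (T (2 * 2)) where
  carrier := {g | chkT g = true}
  mul_mem' := fun {a b} ha hb => chkT_mul a b ha hb
  one_mem' := by
    change chkT 1 = true
    decide +kernel
  inv_mem' := fun {a} ha => chkT_inv a ha

theorem T_ne8 : NE8 (T (2 * 2)) := by
  refine ⟨VT, ⟨fun a ha g => chkT_conj g a ha⟩, fun a ha => chkT_sq a ha, ?_⟩
  let f : Fin 2 × Fin 2 × Bool → VT := fun p =>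
    ⟨⟨2 * (p.1.val : ZMod (2 * 2)), 2 * (p.2.1.val : ZMod (2 * 2)), p.2.2, false⟩, by
      change chkT _ = true
      revert p
      decide +kernel⟩
  have hf : Function.Injective f := by
    intro p q h
    have h1 : ∀ p q : Fin 2 × Fin 2 × Bool,
        (⟨2 * (p.1.val : ZMod (2 * 2)), 2 * (p.2.1.val : ZMod (2 * 2)), p.2.2, false⟩ : T (2 * 2)) =
        ⟨2 * (q.1.val : ZMod (2 * 2)), 2 * (q.2.1.val : ZMod (2 * 2)), q.2.2, false⟩ → p = q := by
      decide +kernel
    exact h1 p q (congrArg Subtype.val h)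
  have h8 : Nat.card (Fin 2 × Fin 2 × Bool) = 8 := by
    rw [Nat.card_eq_fintype_card]
    rfl
  rw [← h8]
  exact Nat.card_le_card_of_injective f hf

end model

theorem g23 {G : Type*} [Group G] [Finite G] {F : Type*} [Field F] [Fintype F] (hF : Fintype.card F = 3)
    (e : G ≃* ↥(Cfsg.Lie.chevG2.group F)) (T : Sylow 2 G) : NE8 ↥(T : Subgroup G) := by
  have : Fact (Nat.Prime 3) := ⟨by norm_num⟩
  have φ : F ≃+* ZMod 3 := FiniteField.ringEquivOfCardEq (by rw [hF, ZMod.card])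
  have e' : G ≃* ↥(Cfsg.Lie.chevG2.group (ZMod 3)) :=
    e.trans (Cfsg.Agent.ChevalleyStructure.FieldIso.groupEquiv Cfsg.Lie.chevG2 φ)
  have : Finite ↥(Cfsg.Lie.chevG2.group (ZMod 3)) := Finite.of_equiv _ e'.toEquiv
  obtain ⟨f⟩ := Cfsg.Agent.GH.Models.G23.exists_sylow_G23 default
  exact of_equiv e' (T_ne8.congr f) T

theorem m12 {G : Type*} [Group G] [Finite G] (h : Cfsg.Spor.IsoM12 G) (T : Sylow 2 G) :
    NE8 ↥(T : Subgroup G) := by
  obtain ⟨e⟩ := h
  have : Finite Cfsg.Spor.M12 := Finite.of_equiv _ e.toEquiv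
  obtain ⟨f⟩ := Cfsg.Agent.MTwelveType.SylowModel.exists_equiv default
  exact of_equiv e (T_ne8.congr f) T

end Cfsg.Agent.H326.Models
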